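import Groth.Agent.Grpsch.Transl
import Groth.Agent.S1653
import Groth.Agent.Flat2C.LqfDense
import Groth.Agent.Dual.H373.Core

/-!
# Homomorphisms of algebraic groups of the same dimension

Over an algebraically closed field, a surjective homomorphism between group schemes of finite type of the
same finite dimension, with irreducible source, is locally quasi-finite.
-/

set_option autoImplicit false

universe u

open CategoryTheory MonoidalCategory CartesianMonoidalCategory MonObj GrpObj AlgebraicGeometry Limits

namespace Groth.Agent.Sga7.H745.Lqf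

open Groth.Agent.Grpsch.Transl

variable {k : Type u} [Field k]

/-- Left translations are compatible with homomorphisms. -/
theorem leftTr_comp {C : Type*} [Category C] [CartesianMonoidalCategory C] {H G : C} [GrpObj H] [GrpObj G]
    (f : H ⟶ G) [IsMonHom f] (x : 𝟙_ C ⟶ H) :
    (leftTr H x).hom ≫ f = f ≫ (leftTr G (x ≫ f)).hom := by
  rw [comp_leftTr, leftTr_hom, MonObj.mul_comp, Category.id_comp, Category.assoc]

section

variable [IsAlgClosed k] {H G : Over (Spec (CommRingCat.of k))} [GrpObj H] [GrpObj G]
  [LocallyOfFiniteType H.hom] (f : H ⟶ G) [IsMonHom f]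

omit [IsAlgClosed k] [LocallyOfFiniteType H.hom] in
theorem quasiFiniteAt_translate (x : 𝟙_ (Over (Spec (CommRingCat.of k))) ⟶ H) (y : H.left) :
    f.left.QuasiFiniteAt ((leftTr H x).hom.left y) ↔ f.left.QuasiFiniteAt y := by
  have h1 : (leftTr H x).hom.left ≫ f.left = f.left ≫ (leftTr G (x ≫ f)).hom.left :=
    congrArg (fun z => z.left) (leftTr_comp f x)
  have i1 : IsIso (leftTr H x).hom.left := inferInstanceAs (IsIso ((Over.forget _).map (leftTr H x).hom))
  have i2 : IsIso (leftTr G (x ≫ f)).hom.left :=
    inferInstanceAs (IsIso ((Over.forget _).map (leftTr G (x ≫ f)).hom))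
  rw [← Scheme.Hom.quasiFiniteAt_comp_iff_of_isOpenImmersion (f := (leftTr H x).hom.left) (g := f.left), h1,
    Scheme.Hom.quasiFiniteAt_comp_iff]

/-- A homomorphism which is quasi-finite at one point is locally quasi-finite. -/
theorem locallyQuasiFinite_of_quasiFiniteAt [LocallyOfFiniteType f.left] (y : H.left)
    (hy : f.left.QuasiFiniteAt y) : LocallyQuasiFinite f.left := by
  have hJ : JacobsonSpace H.left := LocallyOfFiniteType.jacobsonSpace H.hom
  rw [← Scheme.Hom.quasiFiniteLocus_eq_top_iff]
  have hne : ((f.left.quasiFiniteLocus : Set H.left) ∩ closedPoints H.left).Nonempty := by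
    have h1 := JacobsonSpace.closure_inter_closedPoints_eq_closure
      (f.left.quasiFiniteLocus.isOpen.isLocallyClosed : IsLocallyClosed (f.left.quasiFiniteLocus : Set H.left))
    have h2 : (closure ((f.left.quasiFiniteLocus : Set H.left) ∩ closedPoints H.left)).Nonempty := by
      rw [h1]; exact ⟨y, subset_closure hy⟩
    exact closure_nonempty_iff.1 h2
  obtain ⟨z, hz, hzc⟩ := hne
  have hcl : closedPoints H.left ⊆ (f.left.quasiFiniteLocus : Set H.left) := by
    intro w hw
    have h3 : IsClosed ({w} : Set H.left) := hw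
    have h4 : IsClosed ({z} : Set H.left) := hzc
    have h5 : z = (leftTr H (pt H z h4 * (pt H w h3)⁻¹)).hom.left w := by
      have := congr(($(point_leftTr H (pt H z h4 * (pt H w h3)⁻¹) (pt H w h3))).left (IsLocalRing.closedPoint k))
      rw [inv_mul_cancel_right, pt_apply, Over.comp_left, Scheme.Hom.comp_apply, pt_apply] at this
      exact this.symm
    have h6 : f.left.QuasiFiniteAt z := hz
    rw [h5, quasiFiniteAt_translate] at h6
    exact h6
  by_contra hn
  have h7 : ((f.left.quasiFiniteLocus : Set H.left)ᶜ).Nonempty := by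
    rw [Set.nonempty_compl]
    intro h8
    exact hn (TopologicalSpace.Opens.ext h8)
  have h9 := JacobsonSpace.closure_inter_closedPoints_eq_closure
    (f.left.quasiFiniteLocus.isOpen.isClosed_compl.isLocallyClosed)
  have h10 : ((f.left.quasiFiniteLocus : Set H.left)ᶜ ∩ closedPoints H.left) = ∅ := by
    ext w
    simp only [Set.mem_inter_iff, Set.mem_compl_iff, Set.mem_empty_iff_false, iff_false, not_and]
    intro h11 h12
    exact h11 (hcl h12)
  rw [h10, closure_empty] at h9
  obtain ⟨w, hw⟩ := h7
  have h13 := subset_closure hw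
  rw [← h9] at h13
  exact h13

omit [IsAlgClosed k] in
/-- A morphism is quasi-finite on an open where the local fibre dimension is at most zero. -/
theorem quasiFiniteAt_of_fibreDimAt {X Y : Scheme.{u}} (g : X ⟶ Y) [LocallyOfFiniteType g] (V : X.Opens)
    (h : ∀ x ∈ V, FlatMor.fibreDimAt g x ≤ 0) (y : V) : g.QuasiFiniteAt (V.ι y) := by
  have h2 : LocallyQuasiFinite (V.ι ≫ g) := by
    apply Flat2C.LqfDense.locallyQuasiFinite_of_fibreDimAt
    intro x
    rw [Dual.H373.Core.fibreDimAt_comp]
    exact h _ x.2
  exact Scheme.Hom.quasiFiniteAt_comp_iff_of_isOpenImmersion.mp ((V.ι ≫ g).quasiFiniteAt y)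

/-- A surjective homomorphism between groups of the same dimension is locally quasi-finite. -/
theorem locallyQuasiFinite_of_dim [LocallyOfFiniteType G.hom] [IrreducibleSpace H.left]
    (hs : Function.Surjective f.left) (a : ℕ) (hH : topologicalKrullDim H.left = a)
    (hG : topologicalKrullDim G.left = a) : LocallyQuasiFinite f.left := by
  have h1 : LocallyOfFiniteType f.left := by
    have : LocallyOfFiniteType (f.left ≫ G.hom) := by rw [Over.w]; infer_instance
    exact locallyOfFiniteType_of_comp f.left G.hom
  let i1 : H.left.Over (Spec (CommRingCat.of k)) := ⟨H.hom⟩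
  let i2 : G.left.Over (Spec (CommRingCat.of k)) := ⟨G.hom⟩
  have j1 : LocallyOfFiniteType (H.left ↘ Spec (CommRingCat.of k)) := inferInstanceAs (LocallyOfFiniteType H.hom)
  have j2 : LocallyOfFiniteType (G.left ↘ Spec (CommRingCat.of k)) := inferInstanceAs (LocallyOfFiniteType G.hom)
  have hb : topologicalKrullDim (closure (Set.range f.left.base)) = a := by
    rw [← hG, hs.range_eq, closure_univ]
    exact IsHomeomorph.topologicalKrullDim_eq _ (Homeomorph.Set.univ G.left).isHomeomorph
  obtain ⟨-, ho, hd⟩ := Groth.Agent.S1653.result k H.left G.left f.left (Over.w f) a a hH hb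
  obtain ⟨y, hy⟩ := hd.nonempty
  have h2 := quasiFiniteAt_of_fibreDimAt f.left ⟨_, ho⟩ (fun x hx => by
    have h3 : FlatMor.fibreDimAt f.left x = ((a - a : ℕ) : WithBot ℕ∞) := hx
    rw [h3, Nat.sub_self]
    rfl) ⟨y, hy⟩
  exact locallyQuasiFinite_of_quasiFiniteAt f _ h2

end

end Groth.Agent.Sga7.H745.Lqf
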